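import Mathlib

/-!
# Norms and quadratically acting subgroups (helper780)

`A` acts on the finite abelian `p`-group `V` via `ρ`, `P` is a subgroup of index prime to `p`, `J ≤ P` is a `p`-group
generated by quadratically acting elements.  If `v ∈ V` is fixed by `P` and `v ^ p` is fixed by all `a` with
`a⁻¹ J a ≤ P`, then `v ^ p` is fixed by `A`.
-/

set_option autoImplicit false

namespace Cfsg.Agent.H780

open Finset

section

variable {A V X : Type*} [Group A] [CommGroup V]

/-- `g` acts quadratically: `(ρ g - 1)² = 0`. -/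
def IsQuad (ρ : A →* MulAut V) (g : A) : Prop := ∀ v : V, ρ g (ρ g v) * v = ρ g v * ρ g v

theorem IsQuad.pow_apply {ρ : A →* MulAut V} {g : A} (h : IsQuad ρ g) (v : V) (i : ℕ) :
    ρ (g ^ i) v = v * (ρ g v * v⁻¹) ^ i := by
  have h1 : ρ g (ρ g v * v⁻¹) = ρ g v * v⁻¹ := by
    rw [map_mul, map_inv, eq_mul_inv_iff_mul_eq, mul_right_comm, h v, mul_inv_cancel_right]
  induction i with
  | zero => simp
  | succ n ih =>
    rw [pow_succ', map_mul, MulAut.mul_apply, ih, map_mul, map_pow, h1, pow_succ', ← mul_assoc]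
    congr 1
    rw [mul_comm (ρ g v) v⁻¹, mul_inv_cancel_left]

/-- The product over a nontrivial `J`-orbit, raised to the power `p`, vanishes. -/
theorem prod_orbit_pow [MulAction A X] {p : ℕ} [Fact p.Prime] (ρ : A →* MulAut V)
    (J : Subgroup A) [Finite J] (hJ : IsPGroup p J)
    (hgen : J ≤ Subgroup.closure {g : A | g ∈ J ∧ IsQuad ρ g})
    (f : X → V) (hf : ∀ (a : A) (t : X), f (a • t) = ρ a (f t)) (hp2 : ∀ t, f t ^ p ^ 2 = 1)
    (Y : Finset X) (t₀ : X) (hY : ∀ t, t ∈ Y ↔ ∃ j ∈ J, j • t₀ = t)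
    (hne : ∃ j ∈ J, j • t₀ ≠ t₀) : (∏ t ∈ Y, f t) ^ p = 1 := by
  classical
  have hp : p.Prime := Fact.out
  set H : Subgroup J := (MulAction.stabilizer A t₀).subgroupOf J with hH
  have hHtop : H ≠ ⊤ := by
    intro h
    obtain ⟨j, hj, hjt⟩ := hne
    apply hjt
    have h1 : (⟨j, hj⟩ : J) ∈ H := by rw [h]; exact Subgroup.mem_top _
    exact h1
  obtain ⟨M, hMc, hHM⟩ := (eq_top_or_exists_le_coatom H).resolve_left hHtop
  have hnil : Group.IsNilpotent J := hJ.isNilpotent
  have hMn : M.Normal := Subgroup.NormalizerCondition.normal_of_coatom M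
    (Group.normalizerCondition_of_isNilpotent) hMc
  -- a quadratic element outside `M`
  obtain ⟨g, hgJ, hgq, hgM⟩ : ∃ g : A, ∃ hgJ : g ∈ J, IsQuad ρ g ∧ (⟨g, hgJ⟩ : J) ∉ M := by
    by_contra hcon
    push Not at hcon
    apply hMc.1
    rw [Subgroup.eq_top_iff']
    have h1 : J ≤ M.map J.subtype := by
      refine hgen.trans ?_
      rw [Subgroup.closure_le]
      rintro g ⟨hgJ, hgq⟩
      exact ⟨⟨g, hgJ⟩, hcon g hgJ hgq, rfl⟩
    intro x
    obtain ⟨y, hy, hyx⟩ := h1 x.2
    have : y = x := Subtype.ext hyx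
    rwa [← this]
  set g' : J := ⟨g, hgJ⟩ with hg'
  -- `g M` generates `J / M`
  have hcyc : ∀ c : J ⧸ M, c ∈ Subgroup.zpowers (g' : J ⧸ M) := by
    have h1 : (Subgroup.zpowers (g' : J ⧸ M)).comap (QuotientGroup.mk' M) = ⊤ := by
      apply hMc.2
      refine lt_of_le_of_ne ?_ ?_
      · intro m hm
        have : (QuotientGroup.mk' M) m = 1 := (QuotientGroup.eq_one_iff m).2 hm
        show (QuotientGroup.mk' M) m ∈ Subgroup.zpowers (g' : J ⧸ M)
        rw [this]
        exact one_mem _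
      · intro h
        apply hgM
        rw [h]
        exact Subgroup.mem_zpowers _
    intro c
    obtain ⟨j, rfl⟩ := QuotientGroup.mk'_surjective M c
    have : j ∈ (Subgroup.zpowers (g' : J ⧸ M)).comap (QuotientGroup.mk' M) := by
      rw [h1]; exact Subgroup.mem_top _
    exact this
  -- the class map
  let cls : X → J ⧸ M := fun t => if h : ∃ j : J, (j : A) • t₀ = t then (h.choose : J ⧸ M) else 1
  have hcls : ∀ j : J, cls ((j : A) • t₀) = (j : J ⧸ M) := by
    intro j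
    have h : ∃ j' : J, (j' : A) • t₀ = (j : A) • t₀ := ⟨j, rfl⟩
    have h1 : cls ((j : A) • t₀) = (h.choose : J ⧸ M) := dif_pos h
    rw [h1, QuotientGroup.eq]
    apply hHM
    show (((h.choose⁻¹ * j : J) : A)) ∈ MulAction.stabilizer A t₀
    rw [MulAction.mem_stabilizer_iff]
    have h2 := h.choose_spec
    push_cast
    rw [mul_smul, inv_smul_eq_iff]
    exact h2.symm
  have hfinJM : Fintype (J ⧸ M) := Fintype.ofFinite _
  let D : J ⧸ M → V := fun c => ∏ t ∈ Y with cls t = c, f t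
  have hD1 : ∏ c, D c = ∏ t ∈ Y, f t := Finset.prod_fiberwise Y cls f
  have hDsmul : ∀ (j : J) (c : J ⧸ M), D ((j : J ⧸ M) * c) = ρ j (D c) := by
    intro j c
    show ∏ t ∈ Y with cls t = (j : J ⧸ M) * c, f t = ρ j (∏ t ∈ Y with cls t = c, f t)
    rw [map_prod]
    symm
    refine Finset.prod_bij (fun t _ => (j : A) • t) ?_ ?_ ?_ ?_
    · intro t ht
      rw [Finset.mem_filter] at ht ⊢
      obtain ⟨j', hj', hjt⟩ := (hY t).1 ht.1
      refine ⟨(hY _).2 ⟨j * j', J.mul_mem j.2 hj', by rw [mul_smul, hjt]⟩, ?_⟩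
      have h1 := hcls ⟨j', hj'⟩
      have h2 := hcls (j * ⟨j', hj'⟩)
      have h3 : ((j * (⟨j', hj'⟩ : J) : J) : A) • t₀ = (j : A) • t := by
        push_cast
        rw [mul_smul, hjt]
      rw [h3] at h2
      have h4 : ((⟨j', hj'⟩ : J) : A) • t₀ = t := hjt
      rw [h4] at h1
      rw [h2, ← ht.2, h1]
      rfl
    · intro t _ t' _ h
      exact smul_left_cancel _ h
    · intro t ht
      rw [Finset.mem_filter] at ht
      obtain ⟨j', hj', hjt⟩ := (hY t).1 ht.1
      refine ⟨((j : A))⁻¹ • t, ?_, by rw [smul_inv_smul]⟩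
      rw [Finset.mem_filter]
      refine ⟨(hY _).2 ⟨(j : A)⁻¹ * j', J.mul_mem (J.inv_mem j.2) hj', by rw [mul_smul, hjt]⟩, ?_⟩
      have h1 := hcls ⟨j', hj'⟩
      have h2 := hcls (j⁻¹ * ⟨j', hj'⟩)
      have h3 : ((j⁻¹ * (⟨j', hj'⟩ : J) : J) : A) • t₀ = (j : A)⁻¹ • t := by
        push_cast
        rw [mul_smul, hjt]
      rw [h3] at h2
      have h4 : ((⟨j', hj'⟩ : J) : A) • t₀ = t := hjt
      rw [h4, ht.2] at h1
      rw [h2, QuotientGroup.mk_mul, ← h1, QuotientGroup.mk_inv, inv_mul_cancel_left]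
    · intro t _
      exact (hf _ _).symm
  set n := orderOf (g' : J ⧸ M) with hn
  set d := D 1 with hd
  set δ := ρ g d * d⁻¹ with hδ
  have hDpow : ∀ i : ℕ, D ((g' : J ⧸ M) ^ i) = d * δ ^ i := by
    intro i
    have h1 := hDsmul (g' ^ i) 1
    rw [mul_one, QuotientGroup.mk_pow] at h1
    rw [h1]
    have h2 : ((g' ^ i : J) : A) = g ^ i := by push_cast; rfl
    rw [h2, hgq.pow_apply]
  have hδn : δ ^ n = 1 := by
    have h1 := hDpow n
    rw [hn, pow_orderOf_eq_one, ← hd] at h1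
    have h2 : d * 1 = d * δ ^ orderOf (g' : J ⧸ M) := by rw [mul_one]; exact h1
    exact (mul_left_cancel h2).symm
  have hprod : ∏ t ∈ Y, f t = d ^ n * δ ^ (∑ i ∈ range n, i) := by
    rw [← hD1, ← IsCyclic.image_range_orderOf hcyc, Finset.prod_image]
    · rw [Finset.prod_congr rfl (fun i _ => hDpow i), Finset.prod_mul_distrib, Finset.prod_const,
        Finset.card_range, Finset.prod_pow_eq_pow_sum]
    · intro i hi j hj hij
      rw [Finset.coe_range] at hi hj
      exact pow_injOn_Iio_orderOf hi hj hij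
  -- `n` is a positive power of `p`
  have hpq : IsPGroup p (J ⧸ M) := hJ.to_quotient M
  obtain ⟨k, hk⟩ : ∃ k, n = p ^ k := (IsPGroup.iff_orderOf.1 hpq) (g' : J ⧸ M)
  have hn1 : n ≠ 1 := by
    intro h
    rw [hn, orderOf_eq_one_iff, QuotientGroup.eq_one_iff] at h
    exact hgM h
  have hpn : p ∣ n := by
    rw [hk]
    refine dvd_pow_self p ?_
    rintro rfl
    exact hn1 (by rw [hk, pow_zero])
  have hd2 : d ^ p ^ 2 = 1 := by
    show (∏ t ∈ Y with cls t = 1, f t) ^ p ^ 2 = 1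
    rw [← Finset.prod_pow]
    exact Finset.prod_eq_one (fun t _ => hp2 t)
  rw [hprod, mul_pow]
  have h1 : (d ^ n) ^ p = 1 := by
    obtain ⟨c, hc⟩ := hpn
    rw [← pow_mul, hc, mul_comm p c, mul_assoc, ← sq, mul_comm, pow_mul, hd2, one_pow]
  rw [h1, one_mul]
  set e := δ ^ (∑ i ∈ range n, i) with he
  have he2 : e ^ 2 = 1 := by
    rw [he, ← pow_mul, Finset.sum_range_id_mul_two, pow_mul, hδn, one_pow]
  have hen : e ^ n = 1 := by
    rw [he, ← pow_mul, mul_comm, pow_mul, hδn, one_pow]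
  rcases hp.eq_two_or_odd' with h2 | h2
  · rw [h2]; exact he2
  · have h3 : orderOf e ∣ 2 := orderOf_dvd_of_pow_eq_one he2
    have h4 : orderOf e ∣ n := orderOf_dvd_of_pow_eq_one hen
    have h5 : Nat.Coprime 2 n := by
      rw [hk]
      exact Nat.Coprime.pow_right _ ((Nat.coprime_two_left).2 h2)
    have h6 : orderOf e = 1 := Nat.dvd_one.1 (h5 ▸ Nat.dvd_gcd h3 h4)
    rw [orderOf_eq_one_iff] at h6
    rw [h6, one_pow]

/-- Only the fixed points of `J` contribute to the `p`-th power of the full product. -/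
theorem prod_pow_eq_fixed [MulAction A X] [Fintype X] {p : ℕ} [Fact p.Prime] (ρ : A →* MulAut V)
    (J : Subgroup A) [Finite J] (hJ : IsPGroup p J)
    (hgen : J ≤ Subgroup.closure {g : A | g ∈ J ∧ IsQuad ρ g})
    (f : X → V) (hf : ∀ (a : A) (t : X), f (a • t) = ρ a (f t)) (hp2 : ∀ t, f t ^ p ^ 2 = 1)
    (Fx : Finset X) (hFx : ∀ t, t ∈ Fx ↔ ∀ j ∈ J, j • t = t) :
    (∏ t, f t) ^ p = ∏ t ∈ Fx, f t ^ p := by
  classical
  let q : X → MulAction.orbitRel.Quotient J X := fun t => Quotient.mk'' t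
  have hq : ∀ t t', q t = q t' ↔ ∃ j ∈ J, j • t' = t := by
    intro t t'
    constructor
    · intro h
      obtain ⟨j, hj⟩ := (MulAction.orbitRel_apply (G := J)).1 (Quotient.exact h)
      exact ⟨j, j.2, hj⟩
    · rintro ⟨j, hj, rfl⟩
      exact Quotient.sound' ((MulAction.orbitRel_apply (G := J)).2 ⟨⟨j, hj⟩, rfl⟩)
  have hfin : Fintype (MulAction.orbitRel.Quotient J X) := Fintype.ofFinite _
  have h1 : ∏ t ∈ Fx, f t ^ p = ∏ t : X, if t ∈ Fx then f t ^ p else 1 := by
    rw [Finset.prod_ite_mem, Finset.univ_inter]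
  rw [h1, ← Finset.prod_fiberwise Finset.univ q f, ← Finset.prod_fiberwise Finset.univ q,
    ← Finset.prod_pow]
  refine Finset.prod_congr rfl (fun ω _ => ?_)
  obtain ⟨t₀, rfl⟩ : ∃ t₀, q t₀ = ω := Quotient.exists_rep ω
  by_cases hfix : t₀ ∈ Fx
  · have h2 : (Finset.univ.filter fun t => q t = q t₀) = {t₀} := by
      ext t
      rw [Finset.mem_filter, Finset.mem_singleton]
      constructor
      · rintro ⟨-, h⟩
        obtain ⟨j, hj, rfl⟩ := (hq _ _).1 h
        exact (hFx t₀).1 hfix j hj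
      · rintro rfl
        exact ⟨Finset.mem_univ _, rfl⟩
    rw [h2, Finset.prod_singleton, Finset.prod_singleton, if_pos hfix]
  · have hne : ∃ j ∈ J, j • t₀ ≠ t₀ := by
      by_contra hcon
      push Not at hcon
      exact hfix ((hFx t₀).2 hcon)
    rw [prod_orbit_pow ρ J hJ hgen f hf hp2 (Finset.univ.filter fun t => q t = q t₀) t₀ ?_ hne]
    · symm
      refine Finset.prod_eq_one (fun t ht => if_neg (fun h => hfix ?_))
      rw [Finset.mem_filter] at ht
      obtain ⟨j, hj, hjt⟩ := (hq _ _).1 ht.2.symm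
      rw [(hFx t).1 h j hj] at hjt
      rwa [← hjt]
    · intro t
      rw [Finset.mem_filter, hq]
      exact ⟨fun h => h.2, fun h => ⟨Finset.mem_univ _, h⟩⟩

end

section

variable {A V : Type*} [Group A] [Finite A] [CommGroup V] [Finite V]

/-- **The norm argument.** -/
theorem fixed_of_norm {p : ℕ} [Fact p.Prime] (hV : IsPGroup p V) (ρ : A →* MulAut V)
    (P : Sylow p A) (J : Subgroup A) (hJP : J ≤ P)
    (hgen : J ≤ Subgroup.closure {g : A | g ∈ J ∧ IsQuad ρ g}) (v : V)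
    (hv : ∀ a ∈ (P : Subgroup A), ρ a v = v)
    (hx : ∀ a : A, (∀ j ∈ J, a⁻¹ * j * a ∈ (P : Subgroup A)) → ρ a (v ^ p) = v ^ p) (a : A) :
    ρ a (v ^ p) = v ^ p := by
  classical
  have hp : p.Prime := Fact.out
  have hJ : IsPGroup p J := P.isPGroup'.to_le hJP
  have : Fintype (A ⧸ (P : Subgroup A)) := Fintype.ofFinite _
  -- the norm map
  let F : V → (A ⧸ (P : Subgroup A)) → V := fun x q => ρ q.out x
  let N : V →* V :=
    { toFun := fun x => ∏ q : A ⧸ (P : Subgroup A), F x q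
      map_one' := by simp [F]
      map_mul' := fun x y => by simp [F, Finset.prod_mul_distrib] }
  have hN : ∀ x, N x = ∏ q : A ⧸ (P : Subgroup A), F x q := fun _ => rfl
  have hrep : ∀ x : V, (∀ a ∈ (P : Subgroup A), ρ a x = x) → ∀ (a : A), F x (a : A ⧸ (P : Subgroup A)) = ρ a x := by
    intro x hx a
    show ρ ((a : A ⧸ (P : Subgroup A))).out x = ρ a x
    have h1 : (((a : A ⧸ (P : Subgroup A)).out : A) : A ⧸ (P : Subgroup A)) = (a : A ⧸ (P : Subgroup A)) :=
      QuotientGroup.out_eq' _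
    have h2 := QuotientGroup.eq.1 h1
    have h3 := hx _ h2
    have h4 : ρ (a : A ⧸ (P : Subgroup A)).out (ρ ((a : A ⧸ (P : Subgroup A)).out⁻¹ * a) x) = ρ a x := by
      rw [← MulAut.mul_apply, ← map_mul, mul_inv_cancel_left]
    rw [h3] at h4
    exact h4
  have hFsmul : ∀ x : V, (∀ a ∈ (P : Subgroup A), ρ a x = x) → ∀ (b : A) (t : A ⧸ (P : Subgroup A)),
      F x (b • t) = ρ b (F x t) := by
    intro x hx b t
    obtain ⟨a, rfl⟩ := QuotientGroup.mk_surjective t
    rw [MulAction.Quotient.smul_mk, smul_eq_mul, hrep x hx, hrep x hx, map_mul, MulAut.mul_apply]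
  have hNfix : ∀ x : V, (∀ a ∈ (P : Subgroup A), ρ a x = x) → ∀ b : A, ρ b (N x) = N x := by
    intro x hx b
    rw [hN, map_prod, Finset.prod_congr rfl (fun q _ => (hFsmul x hx b q).symm)]
    exact Equiv.prod_comp (MulAction.toPerm b) (F x)
  set m := (P : Subgroup A).index with hm
  have hNpow : ∀ x : V, (∀ a, ρ a x = x) → N x = x ^ m := by
    intro x hx
    rw [hN, Finset.prod_congr rfl (fun q _ => hx q.out), Finset.prod_const, Finset.card_univ,
      hm, Subgroup.index, Nat.card_eq_fintype_card]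
  -- elements of trivial norm
  have key : ∀ x : V, (∀ a ∈ (P : Subgroup A), ρ a x = x) → N x = 1 → x ^ p ^ 2 = 1 →
      (∀ a : A, (∀ j ∈ J, a⁻¹ * j * a ∈ (P : Subgroup A)) → ρ a (x ^ p) = x ^ p) → x ^ p = 1 := by
    intro x hxP hxN hx2 hxJ
    let Fx : Finset (A ⧸ (P : Subgroup A)) := Finset.univ.filter fun t => ∀ j ∈ J, j • t = t
    have h1 := prod_pow_eq_fixed (p := p) ρ J hJ hgen (F x) (hFsmul x hxP)
      (fun t => by show (ρ t.out x) ^ p ^ 2 = 1; rw [← map_pow, hx2, map_one]) Fx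
      (fun t => by simp [Fx])
    rw [← hN, hxN, one_pow] at h1
    have h2 : ∀ t ∈ Fx, F x t ^ p = x ^ p := by
      intro t ht
      obtain ⟨a, rfl⟩ := QuotientGroup.mk_surjective t
      rw [hrep x hxP, ← map_pow]
      apply hxJ
      intro j hj
      have h3 := (Finset.mem_filter.1 ht).2 j hj
      rw [MulAction.Quotient.smul_mk, smul_eq_mul] at h3
      have h4 := QuotientGroup.eq.1 h3.symm
      rwa [← mul_assoc] at h4
    rw [Finset.prod_congr rfl h2, Finset.prod_const] at h1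
    -- the number of fixed points is prime to `p`
    have h3 : Nat.card (A ⧸ (P : Subgroup A)) ≡ Nat.card (MulAction.fixedPoints J (A ⧸ (P : Subgroup A))) [MOD p] :=
      hJ.card_modEq_card_fixedPoints _
    have h4 : Nat.card (MulAction.fixedPoints J (A ⧸ (P : Subgroup A))) = Fx.card := by
      have h5 : MulAction.fixedPoints J (A ⧸ (P : Subgroup A)) = (Fx : Set (A ⧸ (P : Subgroup A))) := by
        ext t
        simp only [Fx, MulAction.mem_fixedPoints, Finset.coe_filter, Finset.mem_univ, true_and,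
          Set.mem_ofPred_eq]
        exact ⟨fun h j hj => h ⟨j, hj⟩, fun h j => h j j.2⟩
      rw [h5]
      exact (Nat.card_coe_set_eq _).trans (Set.ncard_coe_finset Fx)
    have h5 : ¬ p ∣ Fx.card := by
      intro h
      rw [← h4] at h
      exact P.not_dvd_index ((h3.dvd_iff (dvd_refl p)).2 h)
    have h6 : orderOf (x ^ p) ∣ p := orderOf_dvd_of_pow_eq_one (by rw [← pow_mul, ← sq]; exact hx2)
    have h7 : orderOf (x ^ p) ∣ Fx.card := orderOf_dvd_of_pow_eq_one h1.symm
    have h8 : Nat.Coprime p Fx.card := (Nat.Prime.coprime_iff_not_dvd hp).2 h5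
    have h9 : orderOf (x ^ p) = 1 := Nat.dvd_one.1 (h8 ▸ Nat.dvd_gcd h6 h7)
    exact orderOf_eq_one_iff.1 h9
  -- iterate
  have key2 : ∀ (k : ℕ) (x : V), (∀ a ∈ (P : Subgroup A), ρ a x = x) → N x = 1 →
      (∀ a : A, (∀ j ∈ J, a⁻¹ * j * a ∈ (P : Subgroup A)) → ρ a (x ^ p) = x ^ p) →
      x ^ p ^ (k + 1) = 1 → x ^ p = 1 := by
    intro k
    induction k with
    | zero => intro x _ _ _ h; simpa using h
    | succ k ih =>
      intro x hxP hxN hxJ h
      apply ih x hxP hxN hxJ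
      have h1 := key (x ^ p ^ k) (fun a ha => by rw [map_pow, hxP a ha]) (by rw [map_pow, hxN, one_pow])
        (by rw [← pow_mul, ← pow_add]; exact h)
        (fun a ha => by rw [← pow_mul, mul_comm, pow_mul, map_pow, hxJ a ha])
      rwa [← pow_mul, ← pow_succ] at h1
  -- the inverse of the index modulo the order
  obtain ⟨n, hn⟩ := IsPGroup.iff_card.1 hV
  have hcop : Nat.Coprime (Nat.card V) m := by
    rw [hn]
    exact Nat.Coprime.pow_left _ ((Nat.Prime.coprime_iff_not_dvd hp).2 P.not_dvd_index)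
  obtain ⟨l, hl⟩ : ∃ l : ℕ, ∀ x : V, (x ^ m) ^ l = x := by
    have h1 : ∃ l : ℕ, m * l ≡ 1 [MOD Nat.card V] := by
      rcases Nat.lt_or_ge 1 (Nat.card V) with h | h
      · obtain ⟨l, -, hl⟩ := Nat.exists_mul_mod_eq_one_of_coprime hcop.symm h
        exact ⟨l, by rw [Nat.ModEq, hl, Nat.mod_eq_of_lt h]⟩
      · have h0 : Nat.card V = 1 := le_antisymm h Nat.card_pos
        exact ⟨1, by rw [h0]; exact Nat.modEq_one⟩
    obtain ⟨l, hl⟩ := h1
    refine ⟨l, fun x => ?_⟩
    rw [← pow_mul]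
    have h2 : m * l ≡ 1 [MOD orderOf x] := hl.of_dvd (orderOf_dvd_natCard x)
    have h3 := (pow_eq_pow_iff_modEq (x := x)).2 h2
    rw [h3, pow_one]
  set y := (N v) ^ l with hy
  have hyA : ∀ a, ρ a y = y := fun a => by rw [hy, map_pow, hNfix v hv]
  have hNy : N y = N v := by rw [hNpow y hyA, hy, ← pow_mul, mul_comm, pow_mul, hl]
  have h1 : (v * y⁻¹) ^ p = 1 := by
    apply key2 n
    · intro a ha
      rw [map_mul, map_inv, hv a ha, hyA]
    · rw [map_mul, map_inv, hNy, mul_inv_cancel]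
    · intro a ha
      rw [mul_pow, inv_pow, map_mul, map_inv, hx a ha, map_pow, hyA]
    · rw [pow_succ, pow_mul, ← hn, pow_card_eq_one', one_pow]
  have h2 : v ^ p = y ^ p := by
    rw [mul_pow, inv_pow, mul_inv_eq_one] at h1
    exact h1
  rw [h2, map_pow, hyA]

end

section group

open scoped commutatorElement

variable {L : Type*} [Group L]

/-- The subgroup generated by the elements of `P` acting quadratically on `V`. -/
def quadSub (P V : Subgroup L) : Subgroup L :=
  Subgroup.closure {g : L | g ∈ P ∧ ∀ v ∈ V, g * (g * v * g⁻¹) * g⁻¹ * v = (g * v * g⁻¹) * (g * v * g⁻¹)}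

theorem quadSub_le (P V : Subgroup L) : quadSub P V ≤ P := by
  rw [quadSub, Subgroup.closure_le]
  exact fun g hg => hg.1

theorem le_quadSub {P V A : Subgroup L} (hA : A ≤ P) (h : ∀ a ∈ A, ∀ v ∈ V, a * v = v * a) : A ≤ quadSub P V := by
  intro a ha
  refine Subgroup.subset_closure ⟨hA ha, fun v hv => ?_⟩
  have h1 : a * v * a⁻¹ = v := by rw [h a ha v hv, mul_inv_cancel_right]
  rw [h1, h1]

/-- Weak closure. -/
theorem mem_normalizer_quadSub [Finite L] {P V : Subgroup L} [hV : V.Normal] {a : L}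
    (h : ∀ j ∈ quadSub P V, a⁻¹ * j * a ∈ P) :
    a ∈ Subgroup.normalizer ((quadSub P V : Subgroup L) : Set L) := by
  have h1 : ∀ j ∈ quadSub P V, a⁻¹ * j * a ∈ quadSub P V := by
    intro j hj
    have h2 : quadSub P V ≤ (quadSub P V).comap (MulAut.conj a⁻¹).toMonoidHom := by
      conv_lhs => rw [quadSub]
      rw [Subgroup.closure_le]
      rintro g ⟨hgP, hg⟩
      show a⁻¹ * g * a⁻¹⁻¹ ∈ quadSub P V
      rw [inv_inv]
      refine Subgroup.subset_closure ⟨h g (Subgroup.subset_closure ⟨hgP, hg⟩), fun v hv => ?_⟩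
      have h3 := hg (a * v * a⁻¹) (hV.conj_mem v hv a)
      have h4 := congrArg (fun x => a⁻¹ * x * a) h3
      beta_reduce at h4
      calc a⁻¹ * g * a * (a⁻¹ * g * a * v * (a⁻¹ * g * a)⁻¹) * (a⁻¹ * g * a)⁻¹ * v
          = a⁻¹ * (g * (g * (a * v * a⁻¹) * g⁻¹) * g⁻¹ * (a * v * a⁻¹)) * a := by group
        _ = _ := h4
        _ = _ := by group
    have h3 := h2 hj
    have h4 : a⁻¹ * j * a⁻¹⁻¹ ∈ quadSub P V := h3
    rwa [inv_inv] at h4
  have h5 : a⁻¹ ∈ Subgroup.normalizer ((quadSub P V : Subgroup L) : Set L) := by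
    rw [Subgroup.mem_normalizer_iff]
    intro y
    constructor
    · intro hy
      rw [inv_inv]
      exact h1 y hy
    · intro hy
      rw [inv_inv] at hy
      have hinj : Function.Injective (fun z : quadSub P V => (⟨a⁻¹ * z * a, h1 z z.2⟩ : quadSub P V)) := by
        intro x y hxy
        apply Subtype.ext
        have := congrArg Subtype.val hxy
        simpa using this
      obtain ⟨z, hz⟩ := Finite.surjective_of_injective hinj ⟨_, hy⟩
      have hz' : a⁻¹ * (z : L) * a = a⁻¹ * y * a := congrArg Subtype.val hz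
      have : (z : L) = y := by
        have h6 := mul_right_cancel hz'
        exact mul_left_cancel h6
      rw [← this]
      exact z.2
  have := Subgroup.inv_mem _ h5
  rwa [inv_inv] at this

/-- **The group lemma**: `z ∈ V` centralized by the Sylow subgroup `P`, `z ^ p` centralized by `N(J)` with `J` the
subgroup generated by the elements of `P` acting quadratically on the abelian normal `p`-subgroup `V`; then
`z ^ p` is central. -/
theorem central_of_quadSub [Finite L] {p : ℕ} [Fact p.Prime] (P : Sylow p L) (V : Subgroup L) [hVn : V.Normal]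
    (hV : IsPGroup p V) (hVab : ∀ a ∈ V, ∀ b ∈ V, a * b = b * a) {z : L} (hzV : z ∈ V)
    (hzP : ∀ g ∈ (P : Subgroup L), g * z = z * g)
    (hJ : ∀ g ∈ Subgroup.normalizer ((quadSub (P : Subgroup L) V : Subgroup L) : Set L),
      g * z ^ p = z ^ p * g) (g : L) : g * z ^ p = z ^ p * g := by
  let _ : CommGroup V := { (inferInstance : Group V) with
    mul_comm := fun a b => Subtype.ext (hVab a a.2 b b.2) }
  let ρ : L →* MulAut V := MulAut.conjNormal
  have hρ : ∀ (a : L) (v : V), ((ρ a v : V) : L) = a * v * a⁻¹ := fun a v => MulAut.conjNormal_apply a v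
  have h1 := fixed_of_norm (p := p) hV ρ P (quadSub (P : Subgroup L) V) (quadSub_le _ _) ?_ ⟨z, hzV⟩ ?_ ?_ g
  · have h2 := congrArg Subtype.val h1
    rw [hρ] at h2
    have h3 : g * z ^ p * g⁻¹ = z ^ p := h2
    calc g * z ^ p = (g * z ^ p * g⁻¹) * g := by group
      _ = z ^ p * g := by rw [h3]
  · conv_lhs => rw [quadSub]
    rw [Subgroup.closure_le]
    rintro a ⟨haP, ha⟩
    refine Subgroup.subset_closure ⟨Subgroup.subset_closure ⟨haP, ha⟩, fun v => Subtype.ext ?_⟩
    show ((ρ a (ρ a v) : V) : L) * v = (ρ a v : V) * (ρ a v : V)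
    rw [hρ, hρ]
    exact ha v v.2
  · intro a ha
    apply Subtype.ext
    rw [hρ]
    show a * z * a⁻¹ = z
    rw [hzP a ha, mul_inv_cancel_right]
  · intro a ha
    have h3 := hJ a (mem_normalizer_quadSub ha)
    apply Subtype.ext
    rw [hρ]
    show a * z ^ p * a⁻¹ = z ^ p
    rw [h3, mul_inv_cancel_right]

/-- The commutator condition gives quadratic action. -/
theorem mem_quadSub_of_commutator {P V : Subgroup L} (hVn : V.Normal)
    (hVab : ∀ a ∈ V, ∀ b ∈ V, a * b = b * a) {g : L} (hg : g ∈ P)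
    (h : ⁅⁅V, Subgroup.zpowers g⁆, Subgroup.zpowers g⁆ = ⊥) : g ∈ quadSub P V := by
  refine Subgroup.subset_closure ⟨hg, fun v hv => ?_⟩
  rw [Subgroup.commutator_eq_bot_iff_le_centralizer] at h
  have h1 : ⁅v, g⁆ ∈ ⁅V, Subgroup.zpowers g⁆ :=
    Subgroup.commutator_mem_commutator hv (Subgroup.mem_zpowers g)
  have h2 := Subgroup.mem_centralizer_iff.1 (h h1) g (Subgroup.mem_zpowers g)
  rw [commutatorElement_def] at h2
  set w := g * v * g⁻¹ with hw
  have hwV : w ∈ V := hVn.conj_mem v hv g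
  have hw2 : g * w * g⁻¹ ∈ V := hVn.conj_mem w hwV g
  have e1 : v * g * v⁻¹ * g⁻¹ = v * w⁻¹ := by rw [hw]; group
  rw [e1] at h2
  -- g (v w⁻¹) g⁻¹ = v w⁻¹
  have e2 : w * (g * w * g⁻¹)⁻¹ = v * w⁻¹ := by
    have : g * (v * w⁻¹) * g⁻¹ = v * w⁻¹ := by rw [h2]; group
    rw [← this]
    have e3 : g * (v * w⁻¹) * g⁻¹ = (g * v * g⁻¹) * (g * w * g⁻¹)⁻¹ := by group
    rw [e3]
  have e4 : w = v * w⁻¹ * (g * w * g⁻¹) := by rw [← e2]; group
  have e5 : w⁻¹ * (g * w * g⁻¹) = (g * w * g⁻¹) * w⁻¹ := hVab _ (V.inv_mem hwV) _ hw2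
  have e6 : w = v * (g * w * g⁻¹) * w⁻¹ := by
    calc w = v * w⁻¹ * (g * w * g⁻¹) := e4
      _ = v * (w⁻¹ * (g * w * g⁻¹)) := by group
      _ = v * ((g * w * g⁻¹) * w⁻¹) := by rw [e5]
      _ = _ := by group
  have e7 : w * w = v * (g * w * g⁻¹) * w⁻¹ * w := congrArg (fun t => t * w) e6
  rw [inv_mul_cancel_right] at e7
  rw [e7]
  exact (hVab _ hw2 v hv)

end group

end Cfsg.Agent.H780
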